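import Groth.Agent.Fcompl.H551.StalkRes
import Mathlib.RingTheory.Henselian

/-!
# The stalk ring of a formal spectrum as a directed union, and units in adic completions

* `isUnit_iff_evalOneₐ`: an element of `AdicCompletion I S` is a unit iff its image in `S ⧸ I` is
  (no finiteness on `I`).
* `isLocalRing_adicCompletion`: `AdicCompletion I S` is local if `S` is local and `I` is proper (any ideal `I`).
* `mem_stalkSubring_iff`: an element of `stalkSubring A J 𝔭` comes from one `A_{f}`.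
* `isLocalHom_stalkSubring_subtype`, `isLocalRing_stalkSubring`.
-/

set_option autoImplicit false
universe u

namespace Groth.Agent.Fcompl.H557.StalkDirected

open FSch Groth.Agent.Fcompl.H551.StalkRes

section Units

variable {S : Type u} [CommRing S] (I : Ideal S)

/-- An element of an adic completion is a unit as soon as its image modulo `I` is a unit (any ideal `I`). -/
theorem isUnit_of_isUnit_evalOneₐ (x : AdicCompletion I S) (hx : IsUnit (AdicCompletion.evalOneₐ I x)) :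
    IsUnit x := by
  obtain ⟨c, rfl⟩ := AdicCompletion.mk_surjective I S x
  -- modulo `I`
  have hc1 : IsUnit (Ideal.Quotient.mk I (c 1)) := by
    have h1 : AdicCompletion.evalOneₐ I (AdicCompletion.mk I S c) = Ideal.Quotient.mk I (c 1) := by
      rw [← AdicCompletion.factorₐ_evalₐ_one, AdicCompletion.evalₐ_mk]
      rfl
    rwa [h1] at hx
  have hcauchy : ∀ {m n : ℕ}, m ≤ n → c n - c m ∈ I ^ m := by
    intro m n hmn
    have hy := c.2 hmn
    rw [SModEq.sub_mem] at hy
    simp only [smul_eq_mul, Ideal.mul_top] at hy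
    rw [← neg_sub]
    exact (I ^ m).neg_mem hy
  have hinv : ∀ n : ℕ, ∃ d : S, c n * d - 1 ∈ I ^ n := by
    intro n
    rcases Nat.eq_zero_or_pos n with rfl | hn
    · exact ⟨0, by simp⟩
    · obtain ⟨e, he⟩ := hc1.exists_right_inv
      obtain ⟨e, rfl⟩ := Ideal.Quotient.mk_surjective e
      rw [← map_mul, ← map_one (Ideal.Quotient.mk I), Ideal.Quotient.eq] at he
      have h2 : c n * e - 1 ∈ I := by
        have h3 : c n - c 1 ∈ I := by simpa using hcauchy (m := 1) (n := n) hn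
        have h4 : c n * e - 1 = (c n - c 1) * e + (c 1 * e - 1) := by ring
        rw [h4]
        exact I.add_mem (I.mul_mem_right _ h3) he
      have h5 : IsCoprime (Ideal.span {c n}) I := by
        rw [Ideal.isCoprime_iff_exists]
        refine ⟨c n * e, Ideal.mem_span_singleton.mpr (dvd_mul_right _ _), -(c n * e - 1), I.neg_mem h2, by ring⟩
      have h6 : IsCoprime (Ideal.span {c n}) (I ^ n) := h5.pow_right
      rw [Ideal.isCoprime_iff_exists] at h6
      obtain ⟨i, hi, j, hj, hij⟩ := h6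
      obtain ⟨d, rfl⟩ := Ideal.mem_span_singleton.mp hi
      refine ⟨d, ?_⟩
      have : c n * d - 1 = -j := by rw [← hij]; ring
      rw [this]
      exact (I ^ n).neg_mem hj
  choose d hd using hinv
  have hdc : ∀ {m n : ℕ}, m ≤ n → d m - d n ∈ I ^ m := by
    intro m n hmn
    have h1 : c n * d n - 1 ∈ I ^ m := Ideal.pow_le_pow_right hmn (hd n)
    have h2 : c n - c m ∈ I ^ m := hcauchy hmn
    have h3 : d m - d n = d n * (c m * d m - 1) - d m * (c n * d n - 1) + d m * d n * (c n - c m) := by ring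
    rw [h3]
    exact (I ^ m).add_mem ((I ^ m).sub_mem ((I ^ m).mul_mem_left _ (hd m)) ((I ^ m).mul_mem_left _ h1))
      ((I ^ m).mul_mem_left _ h2)
  let y : AdicCompletion.AdicCauchySequence I S := ⟨d, fun {m n} hmn => by
    rw [SModEq.sub_mem]
    simpa only [smul_eq_mul, Ideal.mul_top] using hdc hmn⟩
  refine IsUnit.of_mul_eq_one (AdicCompletion.mk I S y) ?_
  apply AdicCompletion.ext_evalₐ
  intro n
  rw [map_mul, map_one, AdicCompletion.evalₐ_mk, AdicCompletion.evalₐ_mk, ← map_mul,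
    ← map_one (Ideal.Quotient.mk (I ^ n)), Ideal.Quotient.eq]
  exact hd n

theorem isUnit_iff_evalOneₐ (x : AdicCompletion I S) :
    IsUnit x ↔ IsUnit (AdicCompletion.evalOneₐ I x) :=
  ⟨fun h => h.map _, isUnit_of_isUnit_evalOneₐ I x⟩

theorem isLocalHom_evalOneₐ : IsLocalHom (AdicCompletion.evalOneₐ I).toRingHom :=
  ⟨fun x hx => isUnit_of_isUnit_evalOneₐ I x hx⟩

/-- The completion of a local ring with respect to any proper ideal is local. -/
theorem isLocalRing_adicCompletion [IsLocalRing S] (hI : I ≠ ⊤) : IsLocalRing (AdicCompletion I S) := by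
  have hnt : Nontrivial (S ⧸ I) := Ideal.Quotient.nontrivial_iff.2 hI
  have hloc : IsLocalRing (S ⧸ I) :=
    IsLocalRing.of_surjective' (Ideal.Quotient.mk I) Ideal.Quotient.mk_surjective
  have := isLocalHom_evalOneₐ I
  exact (AdicCompletion.evalOneₐ I).toRingHom.domain_isLocalRing

theorem isLocalHom_algebraMap [IsLocalRing S] (hI : I ≠ ⊤) :
    IsLocalHom (algebraMap S (AdicCompletion I S)) := by
  refine ⟨fun s hs => ?_⟩
  have h1 := hs.map (AdicCompletion.evalOneₐ I)
  rw [AlgHom.commutes] at h1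
  have hnt : Nontrivial (S ⧸ I) := Ideal.Quotient.nontrivial_iff.2 hI
  have : IsLocalHom (Ideal.Quotient.mk I) := _root_.isLocalHom_of_le_jacobson_bot _
    ((IsLocalRing.le_maximalIdeal hI).trans (IsLocalRing.jacobson_eq_maximalIdeal ⊥ bot_ne_top).ge)
  exact isUnit_of_map_unit (Ideal.Quotient.mk I) s h1

end Units

section Compl

variable {S T U : Type u} [CommRing S] [CommRing T] [CommRing U] (I : Ideal S) (K : Ideal T) (L : Ideal U)
  (g : S →+* T) (h : T →+* U)

theorem evalOneₐ_complMap (hg : I.map g ≤ K) (x : AdicCompletion I S) :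
    AdicCompletion.evalOneₐ K (complMap I K g hg x) =
      Ideal.quotientMap K g (Ideal.map_le_iff_le_comap.mp hg) (AdicCompletion.evalOneₐ I x) := by
  rw [← AdicCompletion.factorₐ_evalₐ_one, ← AdicCompletion.factorₐ_evalₐ_one, evalₐ_complMap]
  obtain ⟨y, hy⟩ := Ideal.Quotient.mk_surjective (AdicCompletion.evalₐ I 1 x)
  rw [← hy]
  rfl

/-- Functoriality of `complMap`. -/
theorem complMap_complMap (hg : I.map g ≤ K) (hh : K.map h ≤ L) (hgh : I.map (h.comp g) ≤ L)
    (x : AdicCompletion I S) :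
    complMap K L h hh (complMap I K g hg x) = complMap I L (h.comp g) hgh x := by
  apply AdicCompletion.ext_evalₐ
  intro n
  rw [evalₐ_complMap, evalₐ_complMap, evalₐ_complMap]
  obtain ⟨y, hy⟩ := Ideal.Quotient.mk_surjective (AdicCompletion.evalₐ I n x)
  rw [← hy]
  rfl

theorem complMap_congr (g g' : S →+* T) (hgg : g = g') (hg : I.map g ≤ K) (hg' : I.map g' ≤ K)
    (x : AdicCompletion I S) : complMap I K g hg x = complMap I K g' hg' x := by
  subst hgg; rfl

end Compl

section Stalk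

variable (A : Type u) [CommRing A] (J : Ideal A) (𝔭 : Ideal A) [𝔭.IsPrime]

/-- For `f ∣ g`, the localization map `A_f → A_g`. -/
noncomputable def awayToAway (f g : A) (hfg : f ∣ g) : Localization.Away f →+* Localization.Away g :=
  IsLocalization.Away.lift f (g := algebraMap A (Localization.Away g))
    (isUnit_of_dvd_unit (map_dvd _ hfg) (IsLocalization.Away.algebraMap_isUnit g))

@[simp]
theorem awayToAway_algebraMap (f g : A) (hfg : f ∣ g) (a : A) :
    awayToAway A f g hfg (algebraMap A (Localization.Away f) a) = algebraMap A (Localization.Away g) a := by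
  simp [awayToAway]

@[simp]
theorem awayToAtPrime_algebraMap (f : A) (hf : f ∉ 𝔭) (a : A) :
    awayToAtPrime A 𝔭 f hf (algebraMap A (Localization.Away f) a) =
      algebraMap A (Localization.AtPrime 𝔭) a := by
  simp [awayToAtPrime]

theorem map_awayToAway_le (f g : A) (hfg : f ∣ g) :
    (J.map (algebraMap A (Localization.Away f))).map (awayToAway A f g hfg) ≤
      J.map (algebraMap A (Localization.Away g)) := by
  rw [Ideal.map_map]
  apply le_of_eq
  congr 1
  ext a
  simp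

/-- For `f ∣ g`, the completed localization map `A_{f} → A_{g}`. -/
noncomputable def cAwayToCAway (f g : A) (hfg : f ∣ g) : cAway A J f →+* cAway A J g :=
  complMap _ _ (awayToAway A f g hfg) (map_awayToAway_le A J f g hfg)

theorem awayToAtPrime_comp (f g : A) (hfg : f ∣ g) (hf : f ∉ 𝔭) (hg : g ∉ 𝔭) :
    (awayToAtPrime A 𝔭 g hg).comp (awayToAway A f g hfg) = awayToAtPrime A 𝔭 f hf := by
  apply IsLocalization.ringHom_ext (Submonoid.powers f)
  ext a
  simp

theorem cAwayToAtPrime_cAwayToCAway (f g : A) (hfg : f ∣ g) (hf : f ∉ 𝔭) (hg : g ∉ 𝔭) (x : cAway A J f) :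
    cAwayToAtPrime A J 𝔭 g hg (cAwayToCAway A J f g hfg x) = cAwayToAtPrime A J 𝔭 f hf x := by
  have h1 : (J.map (algebraMap A (Localization.Away f))).map
      ((awayToAtPrime A 𝔭 g hg).comp (awayToAway A f g hfg)) ≤
      J.map (algebraMap A (Localization.AtPrime 𝔭)) := by
    rw [awayToAtPrime_comp A 𝔭 f g hfg hf hg]
    exact map_awayToAtPrime_le A J 𝔭 f hf
  refine (complMap_complMap _ _ _ (awayToAway A f g hfg) (awayToAtPrime A 𝔭 g hg)
    (map_awayToAway_le A J f g hfg) (map_awayToAtPrime_le A J 𝔭 g hg) h1 x).trans ?_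
  exact complMap_congr _ _ _ _ (awayToAtPrime_comp A 𝔭 f g hfg hf hg) _ _ x

theorem cAwayToAtPrime_comp_cAwayToCAway (f g : A) (hfg : f ∣ g) (hf : f ∉ 𝔭) (hg : g ∉ 𝔭) :
    (cAwayToAtPrime A J 𝔭 g hg).comp (cAwayToCAway A J f g hfg) = cAwayToAtPrime A J 𝔭 f hf :=
  RingHom.ext (cAwayToAtPrime_cAwayToCAway A J 𝔭 f g hfg hf hg)

theorem range_mono (f g : A) (hfg : f ∣ g) (hf : f ∉ 𝔭) (hg : g ∉ 𝔭) :
    (cAwayToAtPrime A J 𝔭 f hf).range ≤ (cAwayToAtPrime A J 𝔭 g hg).range := by
  rintro _ ⟨x, rfl⟩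
  exact ⟨cAwayToCAway A J f g hfg x, cAwayToAtPrime_cAwayToCAway A J 𝔭 f g hfg hf hg x⟩

/-- The ranges of the maps `A_{f} → A{S⁻¹}` form a directed family. -/
theorem directed_range :
    Directed (· ≤ ·) (fun f : {f : A // f ∉ 𝔭} => (cAwayToAtPrime A J 𝔭 f.1 f.2).range) := by
  intro f g
  have hfg : f.1 * g.1 ∉ 𝔭 := fun h =>
    ((Ideal.IsPrime.mem_or_mem ‹𝔭.IsPrime› h).elim f.2 g.2)
  exact ⟨⟨f.1 * g.1, hfg⟩, range_mono A J 𝔭 _ _ (dvd_mul_right _ _) f.2 hfg,
    range_mono A J 𝔭 _ _ (dvd_mul_left _ _) g.2 hfg⟩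

/-- Every element of the stalk ring comes from one `A_{f}`. -/
theorem mem_stalkSubring_iff (x : cAtPrime A J 𝔭) :
    x ∈ stalkSubring A J 𝔭 ↔ ∃ (f : A) (hf : f ∉ 𝔭), x ∈ (cAwayToAtPrime A J 𝔭 f hf).range := by
  have : Nonempty {f : A // f ∉ 𝔭} :=
    ⟨⟨1, fun h => (Ideal.IsPrime.ne_top ‹𝔭.IsPrime›) ((Ideal.eq_top_iff_one _).mpr h)⟩⟩
  rw [stalkSubring, Subring.mem_iSup_of_directed (directed_range A J 𝔭)]
  simp only [Subtype.exists]

theorem mem_stalkSubring_iff' (x : cAtPrime A J 𝔭) :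
    x ∈ stalkSubring A J 𝔭 ↔ ∃ (f : A) (hf : f ∉ 𝔭) (y : cAway A J f), cAwayToAtPrime A J 𝔭 f hf y = x :=
  mem_stalkSubring_iff A J 𝔭 x

theorem cAwayToAtPrime_mem_stalkSubring (f : A) (hf : f ∉ 𝔭) (y : cAway A J f) :
    cAwayToAtPrime A J 𝔭 f hf y ∈ stalkSubring A J 𝔭 :=
  (mem_stalkSubring_iff' A J 𝔭 _).mpr ⟨f, hf, y, rfl⟩

/-- Finitely many elements of the stalk ring come from one common `A_{f}`. -/
theorem exists_common {ι : Type*} (s : Finset ι) (x : ι → cAtPrime A J 𝔭) (hx : ∀ i ∈ s, x i ∈ stalkSubring A J 𝔭) :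
    ∃ (f : A) (hf : f ∉ 𝔭), ∀ i ∈ s, x i ∈ (cAwayToAtPrime A J 𝔭 f hf).range := by
  classical
  induction s using Finset.induction_on with
  | empty =>
    exact ⟨1, fun h => (Ideal.IsPrime.ne_top ‹𝔭.IsPrime›) ((Ideal.eq_top_iff_one _).mpr h), by simp⟩
  | insert i s hi ih =>
    obtain ⟨f, hf, hs⟩ := ih (fun j hj => hx j (Finset.mem_insert_of_mem hj))
    obtain ⟨g, hg, hgi⟩ := (mem_stalkSubring_iff A J 𝔭 _).mp (hx i (Finset.mem_insert_self _ _))
    have hfg : f * g ∉ 𝔭 := fun h => ((Ideal.IsPrime.mem_or_mem ‹𝔭.IsPrime› h).elim hf hg)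
    refine ⟨f * g, hfg, fun j hj => ?_⟩
    rcases Finset.mem_insert.mp hj with rfl | hj
    · exact range_mono A J 𝔭 _ _ (dvd_mul_left _ _) hg hfg hgi
    · exact range_mono A J 𝔭 _ _ (dvd_mul_right _ _) hf hfg (hs j hj)

/-- If `y ∈ A_{f}` becomes a unit in `A{S⁻¹}`, it is already a unit in some `A_{g}`, `f ∣ g`, `g ∉ 𝔭`. -/
theorem exists_isUnit (hJ : J ≤ 𝔭) (f : A) (hf : f ∉ 𝔭) (y : cAway A J f)
    (hy : IsUnit (cAwayToAtPrime A J 𝔭 f hf y)) :
    ∃ (g : A) (hfg : f ∣ g), g ∉ 𝔭 ∧ IsUnit (cAwayToCAway A J f g hfg y) := by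
  obtain ⟨b, hb⟩ := Ideal.Quotient.mk_surjective
    (AdicCompletion.evalOneₐ (J.map (algebraMap A (Localization.Away f))) y)
  obtain ⟨a, ⟨_, n, rfl⟩, rfl⟩ := IsLocalization.exists_mk'_eq (Submonoid.powers f) b
  -- `a ∉ 𝔭`
  have ha : a ∉ 𝔭 := by
    intro ha
    have h1 := hy.map (AdicCompletion.evalOneₐ (J.map (algebraMap A (Localization.AtPrime 𝔭))))
    have h2 : AdicCompletion.evalOneₐ (J.map (algebraMap A (Localization.AtPrime 𝔭)))
        (cAwayToAtPrime A J 𝔭 f hf y) = Ideal.Quotient.mk _ (awayToAtPrime A 𝔭 f hf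
          (IsLocalization.mk' (Localization.Away f) a (⟨f ^ n, n, rfl⟩ : Submonoid.powers f))) := by
      refine (evalOneₐ_complMap _ _ _ _ _).trans ?_
      rw [← hb]
      rfl
    rw [h2] at h1
    have h3 : awayToAtPrime A 𝔭 f hf
          (IsLocalization.mk' (Localization.Away f) a (⟨f ^ n, n, rfl⟩ : Submonoid.powers f)) ∈
        IsLocalRing.maximalIdeal (Localization.AtPrime 𝔭) := by
      have h4 : awayToAtPrime A 𝔭 f hf
          (IsLocalization.mk' (Localization.Away f) a (⟨f ^ n, n, rfl⟩ : Submonoid.powers f)) *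
            algebraMap A (Localization.AtPrime 𝔭) (f ^ n) = algebraMap A (Localization.AtPrime 𝔭) a := by
        rw [← awayToAtPrime_algebraMap A 𝔭 f hf (f ^ n), ← map_mul]
        have := IsLocalization.mk'_spec (Localization.Away f) a (⟨f ^ n, n, rfl⟩ : Submonoid.powers f)
        rw [this, awayToAtPrime_algebraMap]
      have h5 : algebraMap A (Localization.AtPrime 𝔭) a ∈ IsLocalRing.maximalIdeal (Localization.AtPrime 𝔭) := by
        rw [← Localization.AtPrime.map_eq_maximalIdeal]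
        exact Ideal.mem_map_of_mem _ ha
      rw [← h4] at h5
      have hfn : f ^ n ∈ 𝔭.primeCompl := 𝔭.primeCompl.pow_mem hf n
      have hu : IsUnit (algebraMap A (Localization.AtPrime 𝔭) (f ^ n)) :=
        IsLocalization.map_units (Localization.AtPrime 𝔭) ⟨f ^ n, hfn⟩
      exact (Ideal.mul_unit_mem_iff_mem _ hu).mp h5
    have h6 : IsUnit (awayToAtPrime A 𝔭 f hf
          (IsLocalization.mk' (Localization.Away f) a (⟨f ^ n, n, rfl⟩ : Submonoid.powers f))) := by
      have hne := map_ne_top A J 𝔭 hJ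
      have : Nontrivial (Localization.AtPrime 𝔭 ⧸ J.map (algebraMap A (Localization.AtPrime 𝔭))) :=
        Ideal.Quotient.nontrivial_iff.mpr hne
      have : IsLocalHom (Ideal.Quotient.mk (J.map (algebraMap A (Localization.AtPrime 𝔭)))) :=
        _root_.isLocalHom_of_le_jacobson_bot _
          ((IsLocalRing.le_maximalIdeal hne).trans (IsLocalRing.jacobson_eq_maximalIdeal ⊥ bot_ne_top).ge)
      exact isUnit_of_map_unit (Ideal.Quotient.mk _) _ h1
    exact (IsLocalRing.mem_maximalIdeal _).mp h3 h6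
  have hfa : f * a ∉ 𝔭 := fun h => ((Ideal.IsPrime.mem_or_mem ‹𝔭.IsPrime› h).elim hf ha)
  refine ⟨f * a, dvd_mul_right _ _, hfa, ?_⟩
  apply isUnit_of_isUnit_evalOneₐ
  have h2 : AdicCompletion.evalOneₐ (J.map (algebraMap A (Localization.Away (f * a))))
      (cAwayToCAway A J f (f * a) (dvd_mul_right _ _) y) = Ideal.Quotient.mk _ (awayToAway A f (f * a) (dvd_mul_right _ _)
        (IsLocalization.mk' (Localization.Away f) a (⟨f ^ n, n, rfl⟩ : Submonoid.powers f))) := by
    refine (evalOneₐ_complMap _ _ _ _ _).trans ?_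
    rw [← hb]
    rfl
  rw [h2]
  apply IsUnit.map
  have h4 : awayToAway A f (f * a) (dvd_mul_right _ _)
      (IsLocalization.mk' (Localization.Away f) a (⟨f ^ n, n, rfl⟩ : Submonoid.powers f)) *
        algebraMap A (Localization.Away (f * a)) (f ^ n) = algebraMap A (Localization.Away (f * a)) a := by
    rw [← awayToAway_algebraMap A f (f * a) (dvd_mul_right _ _) (f ^ n), ← map_mul]
    have := IsLocalization.mk'_spec (Localization.Away f) a (⟨f ^ n, n, rfl⟩ : Submonoid.powers f)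
    rw [this, awayToAway_algebraMap]
  have h5 : IsUnit (algebraMap A (Localization.Away (f * a)) a) :=
    isUnit_of_dvd_unit (map_dvd _ (dvd_mul_left a f)) (IsLocalization.Away.algebraMap_isUnit (f * a))
  rw [← h4] at h5
  exact isUnit_of_mul_isUnit_left h5

theorem isLocalHom_stalkSubring_subtype (hJ : J ≤ 𝔭) : IsLocalHom (stalkSubring A J 𝔭).subtype := by
  refine ⟨fun x hx => ?_⟩
  obtain ⟨f, hf, y, hy⟩ := (mem_stalkSubring_iff' A J 𝔭 _).mp x.2
  have hx' : IsUnit (cAwayToAtPrime A J 𝔭 f hf y) := by rw [hy]; exact hx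
  obtain ⟨g, hfg, hg, hu⟩ := exists_isUnit A J 𝔭 hJ f hf y hx'
  obtain ⟨z, hz⟩ := hu.exists_right_inv
  refine IsUnit.of_mul_eq_one ⟨cAwayToAtPrime A J 𝔭 g hg z, cAwayToAtPrime_mem_stalkSubring A J 𝔭 g hg z⟩ ?_
  apply Subtype.ext
  change (x : cAtPrime A J 𝔭) * cAwayToAtPrime A J 𝔭 g hg z = 1
  rw [← hy, ← cAwayToAtPrime_cAwayToCAway A J 𝔭 f g hfg hf hg y, ← map_mul, hz, map_one]

theorem isLocalRing_cAtPrime (hJ : J ≤ 𝔭) : IsLocalRing (cAtPrime A J 𝔭) :=
  isLocalRing_adicCompletion _ (map_ne_top A J 𝔭 hJ)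

theorem isLocalRing_stalkSubring (hJ : J ≤ 𝔭) : IsLocalRing (stalkSubring A J 𝔭) := by
  have := isLocalHom_stalkSubring_subtype A J 𝔭 hJ
  have := isLocalRing_cAtPrime A J 𝔭 hJ
  exact (stalkSubring A J 𝔭).subtype.domain_isLocalRing

end Stalk

end Groth.Agent.Fcompl.H557.StalkDirected
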